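import Cfsg.Agent.H87.BCDefs
import Cfsg.Agent.H86.PredSys
import Cfsg.Agent.H88.NormModel

set_option autoImplicit false
set_option maxHeartbeats 400000

/-!
# Piece NGEN of helper87's S5110 project

The normalizer system `N_F(V)` is generated by its maps on subgroups strictly containing `V`, when `F`
is generated by the maps on subgroups outside the class of `P` and `V` receives every member of the
class of `P`.
-/

namespace Cfsg.Agent.H92.BC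

open Cfsg Cfsg.FusionSystem Cfsg.Agent.H86 Cfsg.Agent.H87

variable {Ω : Type*} [Group Ω] {S : Subgroup Ω}

/-- A map defined on `N_S(Q)` sends it into `N_S` of the image of `Q`. -/
lemma ngen_maps_normalizerIn {F : FusionSystem S} {Q : Subgroup Ω} {ψ : Ω → Ω}
    (hψ : Mor F (normalizerIn S Q) ψ) (hQS : Q ≤ S) {g : Ω} (hg : g ∈ normalizerIn S Q) :
    ψ g ∈ normalizerIn S (imgS Q ψ) :=
  mem_normalizerIn_iff.2 ⟨hψ.mem hg,
    hψ.mem_normalizer_imgS (H86.le_normalizerIn hQS) (fun g hg => (mem_normalizerIn_iff.1 hg).2) hg⟩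

/-- The chart lemma: a map `f` of `F` defined on `T` with `Q₁ < T ≤ N_S(Q₁)`, read through charts
`ψ₁` at `Q₁` and `ψ₂` at `f(Q₁)`, is a map of `D` on `V`. -/
lemma ngen_chart [Finite S] {F : FusionSystem S} {V : Subgroup Ω}
    {E : FusionSystem (normalizerIn S V)} (hE : F.IsNormalizerSystem V E)
    {D : FusionSystem (normalizerIn S V)} (hD : ∀ X : Subgroup Ω, V < X → E.Hom X ⊆ D.Hom X)
    {Q₁ T : Subgroup Ω} {f ψ₁ ψ₂ : Ω → Ω} (hQ₁S : Q₁ ≤ S) (hQT : Q₁ < T)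
    (hTN : T ≤ normalizerIn S Q₁)
    (hf : Mor F T f) (hψ₁ : Mor F (normalizerIn S Q₁) ψ₁) (h₁ : imgS Q₁ ψ₁ = V)
    (hψ₂ : Mor F (normalizerIn S (imgS Q₁ f)) ψ₂) (h₂ : imgS (imgS Q₁ f) ψ₂ = V) :
    Mor D V (fun v => ψ₂ (f (invOn (normalizerIn S Q₁) ψ₁ v))) := by
  have hTS : T ≤ S := hf.le
  have hTfin : Finite T := finite_of_le hTS
  have hQ₁N : Q₁ ≤ normalizerIn S Q₁ := H86.le_normalizerIn hQ₁S
  have hψ₁T : Mor F T ψ₁ := hψ₁.restrict hTN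
  have hψ₁Q : Mor F Q₁ ψ₁ := hψ₁.restrict hQ₁N
  have hfQ : Mor F Q₁ f := hf.restrict hQT.le
  have hinvT : Mor F (imgS T ψ₁) (invOn T ψ₁) := hψ₁T.inv
  have hinv_eq : ∀ y ∈ imgS T ψ₁, invOn T ψ₁ y = invOn (normalizerIn S Q₁) ψ₁ y := by
    intro y hy
    obtain ⟨t, ht, rfl⟩ := hψ₁T.mem_imgS.1 hy
    rw [invOn_apply hψ₁T.injOn ht, invOn_apply hψ₁.injOn (hTN ht)]
  have hinv : Mor F (imgS T ψ₁) (invOn (normalizerIn S Q₁) ψ₁) := hinvT.congr hinv_eq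
  have hinv_mem : ∀ y ∈ imgS T ψ₁, invOn (normalizerIn S Q₁) ψ₁ y ∈ T := by
    intro y hy
    rw [← hinv_eq y hy]
    exact hψ₁T.invOn_mem hy
  have hfT : ∀ t ∈ T, f t ∈ normalizerIn S (imgS Q₁ f) := by
    intro t ht
    exact mem_normalizerIn_iff.2 ⟨hf.mem ht,
      hf.mem_normalizer_imgS hQT.le (fun g hg => (mem_normalizerIn_iff.1 (hTN hg)).2) ht⟩
  have h1 : Mor F (imgS T ψ₁) (f ∘ invOn (normalizerIn S Q₁) ψ₁) := hinv.comp hf hinv_mem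
  have h2 : Mor F (imgS T ψ₁) (ψ₂ ∘ (f ∘ invOn (normalizerIn S Q₁) ψ₁)) :=
    h1.comp hψ₂ (fun y hy => hfT _ (hinv_mem y hy))
  have hVY : V ≤ imgS T ψ₁ := by
    rw [← h₁]
    exact hψ₁T.imgS_mono hQT.le
  have hVYlt : V < imgS T ψ₁ := by
    refine lt_of_le_of_ne hVY (fun h => ?_)
    have c1 : Nat.card (imgS T ψ₁) = Nat.card T := hψ₁T.card_imgS
    have c2 : Nat.card V = Nat.card Q₁ := by rw [← h₁]; exact hψ₁Q.card_imgS
    have c3 := card_lt_card_of_lt hQT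
    rw [← h] at c1
    omega
  have hVS : V ≤ S := by rw [← h₁]; exact hψ₁Q.imgS_le
  have hVfin : Finite V := finite_of_le hVS
  have hθV : ∀ v ∈ V, (ψ₂ ∘ (f ∘ invOn (normalizerIn S Q₁) ψ₁)) v ∈ V := by
    intro v hv
    rw [← h₁] at hv
    obtain ⟨q, hq, rfl⟩ := hψ₁Q.mem_imgS.1 hv
    show ψ₂ (f (invOn (normalizerIn S Q₁) ψ₁ (ψ₁ q))) ∈ V
    rw [invOn_apply hψ₁.injOn (hQ₁N hq), ← h₂]
    have : f q ∈ imgS Q₁ f := hfQ.mem_imgS_of_mem hq
    exact (hψ₂.restrict (H86.le_normalizerIn hfQ.imgS_le)).mem_imgS_of_mem this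
  have hθimg : imgS V (ψ₂ ∘ (f ∘ invOn (normalizerIn S Q₁) ψ₁)) = V :=
    imgS_eq_of_maps (h2.restrict hVY) hθV
  have hYN : imgS T ψ₁ ≤ normalizerIn S V := by
    intro y hy
    obtain ⟨t, ht, rfl⟩ := hψ₁T.mem_imgS.1 hy
    have := ngen_maps_normalizerIn hψ₁ hQ₁S (hTN ht)
    rwa [h₁] at this
  have hvals : ∀ y ∈ imgS T ψ₁,
      (ψ₂ ∘ (f ∘ invOn (normalizerIn S Q₁) ψ₁)) y ∈ normalizerIn S V := by
    intro y hy
    have := ngen_maps_normalizerIn hψ₂ hfQ.imgS_le (hfT _ (hinv_mem y hy))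
    rwa [h₂] at this
  have hE' : Mor E (imgS T ψ₁) (ψ₂ ∘ (f ∘ invOn (normalizerIn S Q₁) ψ₁)) := by
    refine (Cfsg.Agent.H88.mor_normalizerSystem_iff hE).2
      ⟨hYN, hvals, _, ?_, fun _ _ => rfl, hθimg⟩
    rw [sup_of_le_left hVY]
    exact h2
  obtain ⟨φ, hφ, hφf⟩ := hE'
  have hD' : Mor D (imgS T ψ₁) (ψ₂ ∘ (f ∘ invOn (normalizerIn S Q₁) ψ₁)) :=
    ⟨φ, hD _ hVYlt hφ, hφf⟩
  exact hD'.restrict hVY

/-- **Piece NGEN.** -/
theorem normalizer_gen [Finite S] {p : ℕ} [Fact p.Prime] (hS : IsPGroup p S) {F : FusionSystem S} {P V : Subgroup Ω} (hPS : P < S) (hgen : ∀ E : FusionSystem S, (∀ Q : Subgroup Ω, ¬ F.IsConj P Q → F.Hom Q ⊆ E.Hom Q) → F ≤ E) (hV : F.IsConj P V) (hrcv : ∀ Q, F.IsConj P Q → Rcv F Q V) {E : FusionSystem (normalizerIn S V)} (hE : F.IsNormalizerSystem V E) : ∀ D : FusionSystem (normalizerIn S V), (∀ X : Subgroup Ω, V < X → E.Hom X ⊆ D.Hom X) → E ≤ D := by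
  intro D hD
  have hVS : V ≤ S := isConj_le_right hV
  have hVN : V ≤ normalizerIn S V := H86.le_normalizerIn hVS
  have hVfin : Finite V := finite_of_le hVS
  have hlt : ∀ Q, F.IsConj P Q → Q < S := by
    intro Q hQ
    have hQS := isConj_le_right hQ
    refine lt_of_le_of_ne hQS (fun h => ?_)
    have c1 := isConj_card hQ
    have c2 := card_lt_card_of_lt hPS
    rw [h] at c1
    omega
  let good : Subgroup Ω → (Ω → Ω) → Prop := fun X f =>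
    ∀ Q ≤ X, F.IsConj P Q → ∀ ψ₁ ψ₂ : Ω → Ω, Mor F (normalizerIn S Q) ψ₁ → imgS Q ψ₁ = V →
      Mor F (normalizerIn S (imgS Q f)) ψ₂ → imgS (imgS Q f) ψ₂ = V →
      Mor D V (fun v => ψ₂ (f (invOn (normalizerIn S Q) ψ₁ v)))
  have hinvQ : ∀ (Q : Subgroup Ω) (ψ₁ : Ω → Ω), Q ≤ S → Mor F (normalizerIn S Q) ψ₁ →
      imgS Q ψ₁ = V → ∀ v ∈ V, invOn (normalizerIn S Q) ψ₁ v ∈ Q ∧
        ψ₁ (invOn (normalizerIn S Q) ψ₁ v) = v := by
    intro Q ψ₁ hQS hψ₁ h₁ v hv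
    rw [← h₁] at hv
    obtain ⟨q, hq, rfl⟩ := (hψ₁.restrict (H86.le_normalizerIn hQS)).mem_imgS.1 hv
    rw [invOn_apply hψ₁.injOn (H86.le_normalizerIn hQS hq)]
    exact ⟨hq, rfl⟩
  have hcongr : ∀ (X : Subgroup Ω) (f g : Ω → Ω), Mor F X f → (∀ x ∈ X, f x = g x) →
      good X f → good X g := by
    intro X f g hf hfg hgood Q hQX hQ ψ₁ ψ₂ hψ₁ h₁ hψ₂ h₂
    have hQS := isConj_le_right hQ
    have himg : imgS Q f = imgS Q g :=
      (hf.restrict hQX).imgS_congr (fun x hx => hfg x (hQX hx))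
    rw [← himg] at hψ₂ h₂
    refine (hgood Q hQX hQ ψ₁ ψ₂ hψ₁ h₁ hψ₂ h₂).congr (fun v hv => ?_)
    show ψ₂ (f _) = ψ₂ (g _)
    rw [hfg _ (hQX (hinvQ Q ψ₁ hQS hψ₁ h₁ v hv).1)]
  have hconj : ∀ (X : Subgroup Ω) (g : Ω), X ≤ S → g ∈ S → good X (fun x => g * x * g⁻¹) := by
    intro X g hXS hg Q hQX hQ ψ₁ ψ₂ hψ₁ h₁ hψ₂ h₂
    have hQS := isConj_le_right hQ
    have hNS : normalizerIn S Q ≤ S := inf_le_left
    exact ngen_chart hE hD hQS (lt_normalizerIn hS (hlt Q hQ)) le_rfl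
      (Mor.conj F hNS hg) hψ₁ h₁ hψ₂ h₂
  have hcomp : ∀ (X X' : Subgroup Ω) (f g : Ω → Ω), Mor F X f → Mor F X' g →
      (∀ x ∈ X, f x ∈ X') → good X f → good X' g → good X (g ∘ f) := by
    intro X X' f g hf hg hmaps hgf hgg Q hQX hQ ψ₁ ψ₂ hψ₁ h₁ hψ₂ h₂
    have hQS := isConj_le_right hQ
    have hfQ : Mor F Q f := hf.restrict hQX
    have hQ'X' : imgS Q f ≤ X' := by
      intro y hy
      obtain ⟨x, hx, rfl⟩ := hfQ.mem_imgS.1 hy
      exact hmaps x (hQX hx)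
    have hQ'conj : F.IsConj P (imgS Q f) := isConj_trans hQ (isConj_iff.2 ⟨f, hfQ, rfl⟩)
    have hQ'S := isConj_le_right hQ'conj
    obtain ⟨ψ, hψ, hψV⟩ := hrcv (imgS Q f) hQ'conj
    have himg : imgS Q (g ∘ f) = imgS (imgS Q f) g :=
      hfQ.imgS_comp hg (fun x hx => hmaps x (hQX hx))
    rw [himg] at hψ₂ h₂
    have hA := hgf Q hQX hQ ψ₁ ψ hψ₁ h₁ hψ hψV
    have hB := hgg (imgS Q f) hQ'X' hQ'conj ψ ψ₂ hψ hψV hψ₂ h₂
    have hAV : ∀ v ∈ V, ψ (f (invOn (normalizerIn S Q) ψ₁ v)) ∈ V := by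
      intro v hv
      have h := (hinvQ Q ψ₁ hQS hψ₁ h₁ v hv).1
      rw [← hψV]
      exact (hψ.restrict (H86.le_normalizerIn hQ'S)).mem_imgS_of_mem (hfQ.mem_imgS_of_mem h)
    refine (hA.comp hB hAV).congr (fun v hv => ?_)
    have h := (hinvQ Q ψ₁ hQS hψ₁ h₁ v hv).1
    show ψ₂ (g (invOn (normalizerIn S (imgS Q f)) ψ (ψ (f (invOn (normalizerIn S Q) ψ₁ v)))))
      = ψ₂ ((g ∘ f) (invOn (normalizerIn S Q) ψ₁ v))
    rw [invOn_apply hψ.injOn (H86.le_normalizerIn hQ'S (hfQ.mem_imgS_of_mem h))]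
    rfl
  have hinv : ∀ (X : Subgroup Ω) (f : Ω → Ω), Mor F X f → good X f →
      good (imgS X f) (invOn X f) := by
    intro X f hf hgood Q' hQ'X hQ' ψ₁ ψ₂ hψ₁ h₁ hψ₂ h₂
    have hQ'S := isConj_le_right hQ'
    have hfi : Mor F (imgS X f) (invOn X f) := hf.inv
    have hfiQ' : Mor F Q' (invOn X f) := hfi.restrict hQ'X
    have hQX : imgS Q' (invOn X f) ≤ X := by
      intro y hy
      obtain ⟨x, hx, rfl⟩ := hfiQ'.mem_imgS.1 hy
      exact hf.invOn_mem (hQ'X hx)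
    have hQconj : F.IsConj P (imgS Q' (invOn X f)) :=
      isConj_trans hQ' (isConj_iff.2 ⟨_, hfiQ', rfl⟩)
    have hQS := isConj_le_right hQconj
    have hfQ : Mor F (imgS Q' (invOn X f)) f := hf.restrict hQX
    have himg : imgS (imgS Q' (invOn X f)) f = Q' := by
      ext y
      rw [hfQ.mem_imgS]
      constructor
      · rintro ⟨x, hx, rfl⟩
        obtain ⟨z, hz, rfl⟩ := hfiQ'.mem_imgS.1 hx
        rw [hf.apply_invOn (hQ'X hz)]
        exact hz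
      · intro hy
        exact ⟨invOn X f y, hfiQ'.mem_imgS_of_mem hy, hf.apply_invOn (hQ'X hy)⟩
    have hψ₁' : Mor F (normalizerIn S (imgS (imgS Q' (invOn X f)) f)) ψ₁ := by
      rw [himg]; exact hψ₁
    have h₁' : imgS (imgS (imgS Q' (invOn X f)) f) ψ₁ = V := by rw [himg]; exact h₁
    have hA := hgood (imgS Q' (invOn X f)) hQX hQconj ψ₂ ψ₁ hψ₂ h₂ hψ₁' h₁'
    have hAV : ∀ v ∈ V,
        ψ₁ (f (invOn (normalizerIn S (imgS Q' (invOn X f))) ψ₂ v)) ∈ V := by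
      intro v hv
      have h := (hinvQ _ ψ₂ hQS hψ₂ h₂ v hv).1
      have h' : f (invOn (normalizerIn S (imgS Q' (invOn X f))) ψ₂ v) ∈ Q' := by
        have h'' := hfQ.mem_imgS_of_mem h
        rw [himg] at h''
        exact h''
      rw [← h₁]
      exact (hψ₁.restrict (H86.le_normalizerIn hQ'S)).mem_imgS_of_mem h'
    have hAimg := imgS_eq_of_maps hA hAV
    have hAinv := hA.inv
    rw [hAimg] at hAinv
    refine hAinv.congr (fun v hv => ?_)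
    obtain ⟨hq', hq'v⟩ := hinvQ Q' ψ₁ hQ'S hψ₁ h₁ v hv
    have hx : invOn X f (invOn (normalizerIn S Q') ψ₁ v) ∈ imgS Q' (invOn X f) :=
      hfiQ'.mem_imgS_of_mem hq'
    have hfx : f (invOn X f (invOn (normalizerIn S Q') ψ₁ v)) = invOn (normalizerIn S Q') ψ₁ v :=
      hf.apply_invOn (hQ'X hq')
    have hw : ψ₂ (invOn X f (invOn (normalizerIn S Q') ψ₁ v)) ∈ V := by
      rw [← h₂]
      exact (hψ₂.restrict (H86.le_normalizerIn hQS)).mem_imgS_of_mem hx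
    have hAw : ψ₁ (f (invOn (normalizerIn S (imgS Q' (invOn X f))) ψ₂
        (ψ₂ (invOn X f (invOn (normalizerIn S Q') ψ₁ v))))) = v := by
      rw [invOn_apply hψ₂.injOn (H86.le_normalizerIn hQS hx), hfx, hq'v]
    have := invOn_apply hA.injOn hw
    rw [hAw] at this
    exact this
  have hsub : F ≤ predSys F good hcongr hconj hcomp hinv := by
    apply hgen
    intro Q₀ hQ₀ φ hφ
    refine ⟨hφ, ?_⟩
    intro Q hQQ₀ hQ ψ₁ ψ₂ hψ₁ h₁ hψ₂ h₂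
    have hf : Mor F Q₀ (extFun Q₀ φ) := mor_extFun hφ
    have hQ₀S : Q₀ ≤ S := hf.le
    have hQS := isConj_le_right hQ
    have hne : Q ≠ Q₀ := fun h => hQ₀ (h ▸ hQ)
    have hQlt : Q < Q₀ := lt_of_le_of_ne hQQ₀ hne
    have hfinQ₀ : Finite Q₀ := finite_of_le hQ₀S
    have hT : Q < normalizerIn Q₀ Q := lt_normalizerIn (hS.to_le hQ₀S) hQlt
    have hTN : normalizerIn Q₀ Q ≤ normalizerIn S Q := inf_le_inf_right _ hQ₀S
    have hTQ₀ : normalizerIn Q₀ Q ≤ Q₀ := inf_le_left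
    exact ngen_chart hE hD hQS hT hTN (hf.restrict hTQ₀) hψ₁ h₁ hψ₂ h₂
  rw [fusionSystem_le_iff]
  intro X φ hφ
  obtain ⟨hXN, hφN, φ', hφ', hφ'φ, hφ'V⟩ := (Cfsg.Agent.H88.mor_normalizerSystem_iff hE).1 hφ
  by_cases hXV : X ≤ V
  · have hsup : X ⊔ V = V := sup_of_le_right hXV
    rw [hsup] at hφ'
    have hgood := (mor_predSys_iff.1 ((fusionSystem_le_iff.1 hsub) V φ' hφ')).2
    have hNS : normalizerIn S V ≤ S := inf_le_left
    have hid : Mor F (normalizerIn S V) (fun x => x) := Mor.id F hNS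
    have h1 : imgS V (fun x : Ω => x) = V := Mor.imgS_id V
    have hid2 : Mor F (normalizerIn S (imgS V φ')) (fun x => x) := by rw [hφ'V]; exact hid
    have h2 : imgS (imgS V φ') (fun x : Ω => x) = V := by rw [hφ'V]; exact h1
    have hA := hgood V le_rfl hV (fun x => x) (fun x => x) hid h1 hid2 h2
    have hB : Mor D V φ' := hA.congr (fun v hv => by
      have := invOn_apply (f := fun x : Ω => x) hid.injOn (hVN hv)
      exact congrArg φ' this)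
    exact (hB.restrict hXV).congr hφ'φ
  · have hlt' : V < X ⊔ V :=
      lt_of_le_of_ne le_sup_right (fun h => hXV (by rw [h]; exact le_sup_left))
    have hvals : ∀ x ∈ X ⊔ V, φ' x ∈ normalizerIn S V := Cfsg.Agent.H88.mor_sup_maps hφ'
      (fun x hx => by rw [hφ'φ x hx]; exact hφN x hx)
      (fun x hx => hVN (by
        have := (hφ'.restrict le_sup_right).mem_imgS_of_mem hx
        rwa [hφ'V] at this))
    have hmor : Mor F ((X ⊔ V) ⊔ V) φ' := by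
      have e : (X ⊔ V) ⊔ V = X ⊔ V := by rw [sup_assoc, sup_idem]
      rw [e]; exact hφ'
    have hE' : Mor E (X ⊔ V) φ' := (Cfsg.Agent.H88.mor_normalizerSystem_iff hE).2
      ⟨sup_le hXN hVN, hvals, φ', hmor, fun _ _ => rfl, hφ'V⟩
    obtain ⟨φ₀, hφ₀, hφ₀f⟩ := hE'
    have hD' : Mor D (X ⊔ V) φ' := ⟨φ₀, hD _ hlt' hφ₀, hφ₀f⟩
    exact (hD'.restrict le_sup_left).congr hφ'φ

end Cfsg.Agent.H92.BC
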