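import Mathlib
import Cfsg.Agent.H78.FrobSchur3
import Cfsg.Agent.H4.Chars
import Cfsg.Agent.H81.Degree
import Cfsg.Agent.H3.PGroup

set_option autoImplicit false
set_option linter.style.haveILetI false
open Cfsg
open scoped ComplexConjugate commutatorElement

/-!
Linear characters of the Frattini quotient of a finite 2-group acting on the irreducible characters
by multiplication (helper92): orbit counting and the bound `|Stab χ| ≤ χ(1)²`.
Used for the Alperin–Feit–Thompson type congruence on the number of solutions of `x² = 1`.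
-/

namespace Cfsg.Agent.H92

section Lin

variable {G : Type*} [Group G]

/-- The complex value of a linear character of `G ⧸ N` at `g : G`. -/
noncomputable def lin (N : Subgroup G) [N.Normal] (l : (G ⧸ N) →* ℂˣ) (g : G) : ℂ :=
  ((l (QuotientGroup.mk g) : ℂˣ) : ℂ)

theorem lin_mul (N : Subgroup G) [N.Normal] (l : (G ⧸ N) →* ℂˣ) (g h : G) :
    lin N l (g * h) = lin N l g * lin N l h := by
  simp [lin]

theorem lin_one (N : Subgroup G) [N.Normal] (l : (G ⧸ N) →* ℂˣ) : lin N l 1 = 1 := by
  simp [lin]

theorem lin_mul_hom (N : Subgroup G) [N.Normal] (l m : (G ⧸ N) →* ℂˣ) (g : G) :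
    lin N (l * m) g = lin N l g * lin N m g := by
  simp [lin]

theorem lin_one_hom (N : Subgroup G) [N.Normal] (g : G) :
    lin N (1 : (G ⧸ N) →* ℂˣ) g = 1 := by
  simp [lin]

theorem lin_of_mem (N : Subgroup G) [N.Normal] (l : (G ⧸ N) →* ℂˣ) {g : G} (hg : g ∈ N) :
    lin N l g = 1 := by
  have : (QuotientGroup.mk g : G ⧸ N) = 1 := (QuotientGroup.eq_one_iff g).mpr hg
  simp [lin, this]

/-- `lin l` is a character of `G` (of degree one). -/
theorem isCharacter_lin (N : Subgroup G) [N.Normal] (l : (G ⧸ N) →* ℂˣ) :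
    Cfsg.IsCharacter G (lin N l) := by
  refine ⟨1, 
    { toFun := fun g => lin N l g • (1 : Module.End ℂ (Fin 1 → ℂ))
      map_one' := by rw [lin_one, one_smul]
      map_mul' := fun g h => by rw [lin_mul, smul_mul_smul_comm, mul_one] }, ?_⟩
  funext g
  simp [Representation.character]

end Lin

section Frat

universe u

variable {G : Type u} [Group G] [Finite G]

/-- The Frattini quotient of a finite 2-group is commutative (as a local `CommGroup` structure). -/
@[reducible] noncomputable def frattiniQuotCommGroup (hG : IsPGroup 2 G) : CommGroup (G ⧸ frattini G) :=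
  haveI : Fact (Nat.Prime 2) := ⟨Nat.prime_two⟩
  { (inferInstance : Group (G ⧸ frattini G)) with
    mul_comm := by
      intro a b
      induction a using QuotientGroup.induction_on with
      | H a =>
        induction b using QuotientGroup.induction_on with
        | H b =>
          rw [← QuotientGroup.mk_mul, ← QuotientGroup.mk_mul, QuotientGroup.eq]
          have h : ⁅b⁻¹, a⁻¹⁆ ∈ frattini G := by
            apply Cfsg.Agent.H3.commutator_le_frattini hG
            rw [commutator_def]
            exact Subgroup.commutator_mem_commutator (Subgroup.mem_top _) (Subgroup.mem_top _)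
          rw [commutatorElement_def] at h
          convert h using 1; group }

theorem card_hom_frattiniQuot (hG : IsPGroup 2 G) :
    Nat.card ((G ⧸ frattini G) →* ℂˣ) = Nat.card (G ⧸ frattini G) := by
  letI := frattiniQuotCommGroup hG
  haveI : NeZero (Monoid.exponent (G ⧸ frattini G)) := ⟨Monoid.exponent_ne_zero_of_finite⟩
  exact CommGroup.card_monoidHom_of_hasEnoughRootsOfUnity (G ⧸ frattini G) ℂ

theorem exists_lin_ne_one (hG : IsPGroup 2 G) {g : G} (hg : g ∉ frattini G) :
    ∃ l : (G ⧸ frattini G) →* ℂˣ, lin (frattini G) l g ≠ 1 := by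
  letI := frattiniQuotCommGroup hG
  haveI : NeZero (Monoid.exponent (G ⧸ frattini G)) := ⟨Monoid.exponent_ne_zero_of_finite⟩
  have hne : (QuotientGroup.mk g : G ⧸ frattini G) ≠ 1 := by
    intro h
    exact hg ((QuotientGroup.eq_one_iff g).mp h)
  obtain ⟨l, hl⟩ := CommGroup.exists_apply_ne_one_of_hasEnoughRootsOfUnity (G ⧸ frattini G) ℂ hne
  refine ⟨l, ?_⟩
  intro h
  apply hl
  exact Units.ext h

theorem lin_sq (hG : IsPGroup 2 G) (l : (G ⧸ frattini G) →* ℂˣ) (g : G) :
    lin (frattini G) l g * lin (frattini G) l g = 1 := by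
  haveI : Fact (Nat.Prime 2) := ⟨Nat.prime_two⟩
  rw [← lin_mul]
  apply lin_of_mem
  have := Cfsg.Agent.H3.pow_mem_frattini hG g
  rwa [pow_two] at this

theorem lin_eq (hG : IsPGroup 2 G) (l : (G ⧸ frattini G) →* ℂˣ) (g : G) :
    lin (frattini G) l g = 1 ∨ lin (frattini G) l g = -1 :=
  mul_self_eq_one_iff.mp (lin_sq hG l g)

theorem lin_conj (hG : IsPGroup 2 G) (l : (G ⧸ frattini G) →* ℂˣ) (g : G) :
    conj (lin (frattini G) l g) = lin (frattini G) l g := by
  rcases lin_eq hG l g with h | h <;> rw [h] <;> simp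

end Frat

section Orbit

/-- Divisibility of the sum of an invariant integer function over a finite set with a group action:
it suffices that each orbit contributes a multiple of `d`. -/
theorem dvd_sum_of_orbit {L X : Type*} [Group L] [Fintype X] [MulAction L X] (f : X → ℤ) (d : ℤ)
    (hinv : ∀ (l : L) (x : X), f (l • x) = f x)
    (hdvd : ∀ x : X, d ∣ (Nat.card (MulAction.orbit L x) : ℤ) * f x) :
    d ∣ ∑ x, f x := by
  classical
  rw [← Finset.sum_fiberwise_of_maps_to (g := fun x => MulAction.orbit L x)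
    (t := Finset.univ.image (fun x => MulAction.orbit L x))
    (fun x _ => Finset.mem_image_of_mem _ (Finset.mem_univ x))]
  apply Finset.dvd_sum
  intro S hS
  obtain ⟨x₀, -, rfl⟩ := Finset.mem_image.mp hS
  have h1 : ∀ x ∈ Finset.univ.filter (fun x => MulAction.orbit L x = MulAction.orbit L x₀),
      f x = f x₀ := by
    intro x hx
    rw [Finset.mem_filter] at hx
    have hx' : x ∈ MulAction.orbit L x₀ := MulAction.orbit_eq_iff.mp hx.2
    obtain ⟨l, rfl⟩ := hx'
    exact hinv l x₀
  rw [Finset.sum_congr rfl h1, Finset.sum_const, nsmul_eq_mul]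
  have h2 : (Finset.univ.filter (fun x => MulAction.orbit L x = MulAction.orbit L x₀)).card =
      Nat.card (MulAction.orbit L x₀) := by
    rw [Nat.card_eq_fintype_card, Fintype.card_subtype]
    congr 1
    ext x
    simp only [Finset.mem_filter, Finset.mem_univ, true_and]
    exact MulAction.orbit_eq_iff
  rw [h2]
  exact hdvd x₀

theorem card_orbit_mul_card_stabilizer {L X : Type*} [Group L] [MulAction L X] (x : X) :
    Nat.card (MulAction.orbit L x) * Nat.card (MulAction.stabilizer L x) = Nat.card L := by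
  rw [← Nat.card_prod]
  exact Nat.card_congr (MulAction.orbitProdStabilizerEquivGroup L x)

end Orbit

section Act

universe u

variable {G : Type u} [Group G] [Fintype G]

theorem isIrrCharacter_lin_mul (hG : IsPGroup 2 G) (l : (G ⧸ frattini G) →* ℂˣ)
    (χ : Cfsg.IrrCharacter G) :
    Cfsg.IsIrrCharacter G (fun g => lin (frattini G) l g * χ.1 g) := by
  apply Cfsg.Agent.H4.isIrrCharacter_of_norm_one
  · exact Cfsg.Agent.H4.isCharacter_mul (isCharacter_lin (frattini G) l)
      (Cfsg.Agent.H4.isCharacter_of_isIrrCharacter χ.2)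
  · have h := Cfsg.Agent.H4.irr_inner_self χ
    unfold Cfsg.classInner at h ⊢
    rw [← h]
    congr 1
    apply Finset.sum_congr rfl
    intro g _
    rw [map_mul, lin_conj hG]
    calc lin (frattini G) l g * χ.1 g * (lin (frattini G) l g * conj (χ.1 g))
        = (lin (frattini G) l g * lin (frattini G) l g) * (χ.1 g * conj (χ.1 g)) := by ring
      _ = χ.1 g * conj (χ.1 g) := by rw [lin_sq hG, one_mul]

/-- The action of the linear characters of the Frattini quotient on the irreducible characters. -/
@[reducible] noncomputable def irrAction (hG : IsPGroup 2 G) :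
    MulAction ((G ⧸ frattini G) →* ℂˣ) (Cfsg.IrrCharacter G) where
  smul l χ := ⟨fun g => lin (frattini G) l g * χ.1 g, isIrrCharacter_lin_mul hG l χ⟩
  one_smul χ := by
    apply Subtype.ext
    funext g
    show lin (frattini G) 1 g * χ.1 g = χ.1 g
    rw [lin_one_hom, one_mul]
  mul_smul l m χ := by
    apply Subtype.ext
    funext g
    show lin (frattini G) (l * m) g * χ.1 g =
      lin (frattini G) l g * (lin (frattini G) m g * χ.1 g)
    rw [lin_mul_hom, mul_assoc]

theorem irrAction_apply (hG : IsPGroup 2 G) (l : (G ⧸ frattini G) →* ℂˣ)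
    (χ : Cfsg.IrrCharacter G) (g : G) :
    ((irrAction hG).smul l χ).1 g = lin (frattini G) l g * χ.1 g := rfl

theorem indicator_smul (hG : IsPGroup 2 G) (l : (G ⧸ frattini G) →* ℂˣ)
    (χ : Cfsg.IrrCharacter G) :
    Cfsg.Agent.H78.indicator ((irrAction hG).smul l χ).1 = Cfsg.Agent.H78.indicator χ.1 := by
  unfold Cfsg.Agent.H78.indicator
  congr 1
  apply Finset.sum_congr rfl
  intro s _
  rw [irrAction_apply, lin_mul, lin_sq hG, one_mul]

/-- Values of an irreducible character are bounded by its degree. -/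
theorem irr_norm_le (χ : Cfsg.IrrCharacter G) (n : ℕ) (hn : χ.1 1 = n) (g : G) :
    ‖χ.1 g‖ ≤ n := by
  obtain ⟨m, ρ, hirr, hχ⟩ := χ.2
  have h1 : ‖ρ.character g‖ ≤ (Module.finrank ℂ (Fin m → ℂ) : ℝ) :=
    Cfsg.Agent.H4.character_norm_le ρ g
  have h2 : (n : ℂ) = (Module.finrank ℂ (Fin m → ℂ) : ℂ) := by
    rw [← hn, ← hχ, Representation.char_one]
  have h3 : n = Module.finrank ℂ (Fin m → ℂ) := Nat.cast_injective h2
  rw [← hχ, h3]
  exact h1

/-- The degree of an irreducible character divides the group order. -/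
theorem irr_degree_dvd (χ : Cfsg.IrrCharacter G) (n : ℕ) (hn : χ.1 1 = n) : n ∣ Nat.card G := by
  obtain ⟨m, ρ, hirr, hχ⟩ := χ.2
  haveI := hirr
  have h1 := Cfsg.Agent.H81.finrank_dvd_card ρ
  have h2 : (n : ℂ) = (Module.finrank ℂ (Fin m → ℂ) : ℂ) := by
    rw [← hn, ← hχ, Representation.char_one]
  have h3 : n = Module.finrank ℂ (Fin m → ℂ) := Nat.cast_injective h2
  rw [h3]
  exact h1

end Act

section Main

universe u

variable {G : Type u} [Group G] [Fintype G]

/-- Sum of the values at `g` of all linear characters of the Frattini quotient. -/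
theorem sum_lin (hG : IsPGroup 2 G) [Fintype ((G ⧸ frattini G) →* ℂˣ)] (g : G)
    [Decidable (g ∈ frattini G)] :
    ∑ l : (G ⧸ frattini G) →* ℂˣ, lin (frattini G) l g =
      if g ∈ frattini G then (Fintype.card ((G ⧸ frattini G) →* ℂˣ) : ℂ) else 0 := by
  split_ifs with hg
  · rw [Finset.sum_congr rfl (fun l _ => lin_of_mem (frattini G) l hg)]
    simp
  · obtain ⟨l₀, hl₀⟩ := exists_lin_ne_one hG hg
    have h1 : ∑ l : (G ⧸ frattini G) →* ℂˣ, lin (frattini G) l g =
        lin (frattini G) l₀ g * ∑ l : (G ⧸ frattini G) →* ℂˣ, lin (frattini G) l g := by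
      rw [Finset.mul_sum]
      rw [← Equiv.sum_comp (Equiv.mulLeft l₀)]
      apply Finset.sum_congr rfl
      intro l _
      rw [Equiv.coe_mulLeft, lin_mul_hom]
    have h2 : (1 - lin (frattini G) l₀ g) *
        ∑ l : (G ⧸ frattini G) →* ℂˣ, lin (frattini G) l g = 0 := by
      rw [sub_mul, one_mul, ← h1, sub_self]
    rcases mul_eq_zero.mp h2 with h3 | h3
    · exact absurd (sub_eq_zero.mp h3).symm hl₀
    · exact h3

theorem finite_hom_frattiniQuot (hG : IsPGroup 2 G) : Finite ((G ⧸ frattini G) →* ℂˣ) := by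
  apply Nat.finite_of_card_ne_zero
  rw [card_hom_frattiniQuot hG]
  exact Nat.card_pos.ne'

/-- The stabilizer of an irreducible character under multiplication by the linear characters of the
Frattini quotient has order at most the square of the degree. -/
theorem card_stabilizer_le (hG : IsPGroup 2 G) (χ : Cfsg.IrrCharacter G) (n : ℕ)
    (hn : χ.1 1 = n) :
    Nat.card ↥(@MulAction.stabilizer ((G ⧸ frattini G) →* ℂˣ) (Cfsg.IrrCharacter G) _
      (irrAction hG) χ) ≤ n ^ 2 := by
  classical
  letI := irrAction hG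
  haveI : Finite ((G ⧸ frattini G) →* ℂˣ) := finite_hom_frattiniQuot hG
  letI : Fintype ((G ⧸ frattini G) →* ℂˣ) := Fintype.ofFinite _
  have h3 : ∑ l : (G ⧸ frattini G) →* ℂˣ, Cfsg.classInner (l • χ).1 χ.1 =
      (Nat.card (MulAction.stabilizer ((G ⧸ frattini G) →* ℂˣ) χ) : ℂ) := by
    have : ∀ l : (G ⧸ frattini G) →* ℂˣ,
        Cfsg.classInner (l • χ).1 χ.1 = if l • χ = χ then 1 else 0 := fun l => by
      rw [Cfsg.Agent.H4.irr_inner]
    rw [Finset.sum_congr rfl (fun l _ => this l), Finset.sum_boole]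
    rw [Nat.card_eq_fintype_card, Fintype.card_subtype]
    congr 2
  have h4 : ∑ l : (G ⧸ frattini G) →* ℂˣ, Cfsg.classInner (l • χ).1 χ.1 =
      (Nat.card G : ℂ)⁻¹ * ∑ g : G,
        (if g ∈ frattini G then (Fintype.card ((G ⧸ frattini G) →* ℂˣ) : ℂ) else 0) *
          (χ.1 g * conj (χ.1 g)) := by
    unfold Cfsg.classInner
    rw [← Finset.mul_sum, Finset.sum_comm]
    congr 1
    apply Finset.sum_congr rfl
    intro g _
    rw [← sum_lin hG g, Finset.sum_mul]
    apply Finset.sum_congr rfl
    intro l _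
    show lin (frattini G) l g * χ.1 g * conj (χ.1 g) =
      lin (frattini G) l g * (χ.1 g * conj (χ.1 g))
    ring
  have hcard : (Fintype.card ((G ⧸ frattini G) →* ℂˣ) : ℝ) * (Nat.card (frattini G) : ℝ) =
      (Nat.card G : ℝ) := by
    rw [← Nat.card_eq_fintype_card, card_hom_frattiniQuot hG]
    exact_mod_cast (Subgroup.card_eq_card_quotient_mul_card_subgroup (frattini G)).symm
  have hGpos : (0 : ℝ) < (Nat.card G : ℝ) := by exact_mod_cast Nat.card_pos
  have hb : (Nat.card (MulAction.stabilizer ((G ⧸ frattini G) →* ℂˣ) χ) : ℝ) ≤ (n : ℝ) ^ 2 := by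
    have e1 : (Nat.card (MulAction.stabilizer ((G ⧸ frattini G) →* ℂˣ) χ) : ℝ) =
        ‖((Nat.card (MulAction.stabilizer ((G ⧸ frattini G) →* ℂˣ) χ) : ℕ) : ℂ)‖ := by
      rw [Complex.norm_natCast]
    rw [e1, ← h3, h4, norm_mul, norm_inv, Complex.norm_natCast]
    calc (Nat.card G : ℝ)⁻¹ * ‖∑ g : G,
            (if g ∈ frattini G then (Fintype.card ((G ⧸ frattini G) →* ℂˣ) : ℂ) else 0) *
              (χ.1 g * conj (χ.1 g))‖
        ≤ (Nat.card G : ℝ)⁻¹ * ∑ g : G,
            (if g ∈ frattini G then (Fintype.card ((G ⧸ frattini G) →* ℂˣ) : ℝ) else 0) *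
              (n : ℝ) ^ 2 := by
          apply mul_le_mul_of_nonneg_left _ (inv_nonneg.mpr (Nat.cast_nonneg _))
          refine le_trans (norm_sum_le _ _) (Finset.sum_le_sum fun g _ => ?_)
          rw [norm_mul, norm_mul, RCLike.norm_conj]
          have hχ := irr_norm_le χ n hn g
          split_ifs with hg
          · rw [Complex.norm_natCast]
            apply mul_le_mul_of_nonneg_left _ (Nat.cast_nonneg _)
            nlinarith [norm_nonneg (χ.1 g)]
          · simp
      _ = (Nat.card G : ℝ)⁻¹ * ((Fintype.card ((G ⧸ frattini G) →* ℂˣ) : ℝ) *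
            (Nat.card (frattini G) : ℝ) * (n : ℝ) ^ 2) := by
          congr 1
          rw [← Finset.sum_mul]
          congr 1
          rw [Finset.sum_ite, Finset.sum_const_zero, add_zero, Finset.sum_const, nsmul_eq_mul,
            mul_comm]
          congr 2
          rw [Nat.card_eq_fintype_card, Fintype.card_subtype]
      _ = (n : ℝ) ^ 2 := by
          rw [hcard]; field_simp
  exact_mod_cast hb

end Main

end Cfsg.Agent.H92
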