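/-
helper92: `p`-rationality and power maps, for S4892.

* `pow_eq_of_rat`: a `p`-rational character is fixed by the power maps `g ↦ g ^ u` with `u` prime
  to `p` and `u ≡ 1` modulo the `p'`-part of the exponent;
* `rat_of_fixed`: conversely a character fixed by all these power maps is `p`-rational.
-/
import Mathlib
import Cfsg.Prelude.Def_Blocks
import Cfsg.Agent.H79.GaloisAut
import Cfsg.Agent.H79.GaloisChar
import Cfsg.Agent.H79.CharValues

set_option autoImplicit false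
set_option linter.unusedSectionVars false
set_option linter.unusedVariables false
set_option linter.style.haveILetI false

namespace Cfsg.Agent.H92.PRat

open Cfsg

/-- A `p`-rational character is fixed by the power maps `g ↦ g ^ u` with `u` prime to `p` and
`u ≡ 1` modulo the `p'`-part of the exponent. -/
theorem pow_eq_of_rat {K : Type*} [Group K] [Finite K] {p : ℕ} (hp : p.Prime) {χ : K → ℂ}
    (hχ : IsCharacter K χ) {r : ℕ} (hpr : ¬ p ∣ r)
    (hrat : ∀ g : K, χ g ∈ IntermediateField.adjoin ℚ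
      ({Complex.exp (2 * Real.pi * Complex.I / r)} : Set ℂ))
    (a m₀ : ℕ) (hm₀ : ¬ p ∣ m₀) (hexp : ∀ x : K, x ^ (p ^ a * m₀) = 1)
    (u : ℕ) (hup : ¬ p ∣ u) (hum : u ≡ 1 [MOD m₀]) (x : K) : χ (x ^ u) = χ x := by
  obtain ⟨m, ρ, rfl⟩ := hχ
  have hr0 : 0 < r := Nat.pos_of_ne_zero (fun h => hpr (h ▸ dvd_zero p))
  have hm₀pos : 0 < m₀ := Nat.pos_of_ne_zero (fun h => hm₀ (h ▸ dvd_zero p))
  have hcop : Nat.Coprime (p ^ a) (m₀ * r) :=
    Nat.Coprime.pow_left a ((Nat.Prime.coprime_iff_not_dvd hp).mpr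
      (fun h => ((Nat.Prime.dvd_mul hp).mp h).elim hm₀ hpr))
  obtain ⟨k', hk'1, hk'2⟩ : ∃ k' : ℕ, k' ≡ u [MOD p ^ a] ∧ k' ≡ 1 [MOD m₀ * r] :=
    ⟨Nat.chineseRemainder hcop u 1, (Nat.chineseRemainder hcop u 1).2.1,
      (Nat.chineseRemainder hcop u 1).2.2⟩
  have hN : 0 < p ^ a * (m₀ * r) :=
    Nat.mul_pos (pow_pos hp.pos a) (Nat.mul_pos hm₀pos hr0)
  have hk'cop : Nat.Coprime k' (p ^ a * (m₀ * r)) := by
    apply Nat.Coprime.mul_right
    · have h1 := hk'1.gcd_eq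
      unfold Nat.Coprime
      rw [h1]
      exact Nat.Coprime.pow_right a ((Nat.Prime.coprime_iff_not_dvd hp).mpr hup).symm
    · have h1 := hk'2.gcd_eq
      unfold Nat.Coprime
      rw [h1]
      exact Nat.gcd_one_left _
  obtain ⟨τ, hτ⟩ := Cfsg.Agent.H79.exists_ringEquiv_complex_pow (p ^ a * (m₀ * r)) k' hN hk'cop
  have hxN : x ^ (p ^ a * (m₀ * r)) = 1 := by rw [← mul_assoc, pow_mul, hexp, one_pow]
  have h1 := Cfsg.Agent.H79.ringHom_character_eq_pow ρ (p ^ a * (m₀ * r)) k' hN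
    (τ : ℂ →+* ℂ) hτ x hxN
  have h2 : x ^ k' = x ^ u := by
    rw [pow_eq_pow_iff_modEq]
    have hk'm : k' ≡ u [MOD m₀] := (hk'2.of_dvd (dvd_mul_right m₀ r)).trans hum.symm
    have hcop2 : Nat.Coprime (p ^ a) m₀ :=
      Nat.Coprime.pow_left a ((Nat.Prime.coprime_iff_not_dvd hp).mpr hm₀)
    have h3 : k' ≡ u [MOD p ^ a * m₀] :=
      (Nat.modEq_and_modEq_iff_modEq_mul hcop2).mp ⟨hk'1, hk'm⟩
    exact h3.of_dvd (orderOf_dvd_of_pow_eq_one (hexp x))
  obtain ⟨ω, hω⟩ : ∃ ω : ℂ, ω = Complex.exp (2 * Real.pi * Complex.I / r) := ⟨_, rfl⟩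
  rw [← hω] at hrat
  have hr0' : (r : ℂ) ≠ 0 := by exact_mod_cast hr0.ne'
  have hωr : ω ^ r = 1 := by
    rw [hω, ← Complex.exp_nat_mul]
    have h3 : (r : ℂ) * (2 * Real.pi * Complex.I / r) = 2 * Real.pi * Complex.I := by
      field_simp
    rw [h3, Complex.exp_two_pi_mul_I]
  have hpowmod : ∀ j : ℕ, ω ^ j = ω ^ (j % r) := by
    intro j
    conv_lhs => rw [← Nat.mod_add_div j r]
    rw [pow_add, pow_mul, hωr, one_pow, mul_one]
  have hk'r : k' ≡ 1 [MOD r] := hk'2.of_dvd (dvd_mul_left r m₀)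
  have hτω : τ ω = ω := by
    rw [hτ ω (by rw [← mul_assoc, pow_mul', hωr, one_pow]), hpowmod k', hk'r, ← hpowmod 1,
      pow_one]
  have hfix : ∀ z ∈ IntermediateField.adjoin ℚ ({ω} : Set ℂ), τ z = z := by
    intro z hz
    induction hz using IntermediateField.adjoin_induction with
    | mem y hy =>
      rw [Set.mem_singleton_iff] at hy
      rw [hy]
      exact hτω
    | algebraMap q => simp
    | add y y' _ _ hy hy' => rw [map_add, hy, hy']
    | inv y _ hy => rw [map_inv₀, hy]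
    | mul y y' _ _ hy hy' => rw [map_mul, hy, hy']
  have h3 := hfix _ (hrat x)
  calc ρ.character (x ^ u) = ρ.character (x ^ k') := by rw [h2]
    _ = τ (ρ.character x) := h1.symm
    _ = ρ.character x := h3

/-- The sum of `γ ^ v` over the `v < p ^ (b + 1)` prime to `p` is an integer when
`γ ^ (p ^ (b + 1)) = 1`. -/
theorem unit_sum (p b : ℕ) (hp : 0 < p) (γ : ℂ) (h : γ ^ (p ^ (b + 1)) = 1) :
    ∃ k : ℤ, ∑ r ∈ Finset.Ico 1 p, ∑ w ∈ Finset.range (p ^ b), γ ^ (r + p * w) = (k : ℂ) := by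
  have e : ∑ r ∈ Finset.Ico 1 p, ∑ w ∈ Finset.range (p ^ b), γ ^ (r + p * w)
      = (∑ r ∈ Finset.Ico 1 p, γ ^ r) * ∑ w ∈ Finset.range (p ^ b), (γ ^ p) ^ w := by
    rw [Finset.sum_mul_sum]
    apply Finset.sum_congr rfl
    intro r _
    apply Finset.sum_congr rfl
    intro w _
    rw [pow_add, pow_mul]
  rw [e]
  by_cases h1 : γ ^ p = 1
  · have h2 : ∑ r ∈ Finset.Ico 1 p, γ ^ r = ∑ r ∈ Finset.range p, γ ^ r - 1 := by
      rw [Finset.range_eq_Ico, Finset.sum_eq_sum_Ico_succ_bot hp]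
      simp
    rw [h1, h2]
    simp only [one_pow, Finset.sum_const, Finset.card_range, nsmul_eq_mul, mul_one]
    by_cases h3 : γ = 1
    · rw [h3]
      simp only [one_pow, Finset.sum_const, Finset.card_range, nsmul_eq_mul, mul_one]
      exact ⟨((p : ℤ) - 1) * ((p ^ b : ℕ) : ℤ), by push_cast; ring⟩
    · have h4 : ∑ r ∈ Finset.range p, γ ^ r = 0 := by
        have := mul_geom_sum γ p
        rw [h1, sub_self] at this
        exact (mul_eq_zero.mp this).resolve_left (sub_ne_zero.mpr h3)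
      rw [h4]
      exact ⟨-((p ^ b : ℕ) : ℤ), by push_cast; ring⟩
  · have h4 : ∑ w ∈ Finset.range (p ^ b), (γ ^ p) ^ w = 0 := by
      have := mul_geom_sum (γ ^ p) (p ^ b)
      rw [← pow_mul, ← pow_succ', h, sub_self] at this
      exact (mul_eq_zero.mp this).resolve_left (sub_ne_zero.mpr h1)
    rw [h4, mul_zero]
    exact ⟨0, by simp⟩

/-- A character fixed by all power maps `g ↦ g ^ u` with `u` prime to `p` and `u ≡ 1` modulo the
`p'`-part `m₀` of the exponent has its values in the `m₀`-th cyclotomic field. -/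
theorem rat_of_fixed {G : Type*} [Group G] [Finite G] {p : ℕ} (hp : p.Prime) {χ : G → ℂ}
    (hχ : IsCharacter G χ) (a m₀ : ℕ) (hm₀ : ¬ p ∣ m₀) (hexp : ∀ g : G, g ^ (p ^ a * m₀) = 1)
    (hfix : ∀ u : ℕ, ¬ p ∣ u → u ≡ 1 [MOD m₀] → ∀ g, χ (g ^ u) = χ g) (g : G) :
    χ g ∈ IntermediateField.adjoin ℚ
      ({Complex.exp (2 * Real.pi * Complex.I / m₀)} : Set ℂ) := by
  obtain ⟨n, ρ, rfl⟩ := hχ
  have hm₀pos : 0 < m₀ := Nat.pos_of_ne_zero (fun h => hm₀ (h ▸ dvd_zero p))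
  have hη : Complex.exp (2 * Real.pi * Complex.I / m₀) ∈ IntermediateField.adjoin ℚ
      ({Complex.exp (2 * Real.pi * Complex.I / m₀)} : Set ℂ) :=
    IntermediateField.subset_adjoin ℚ _ (Set.mem_singleton _)
  rcases Nat.eq_zero_or_pos a with ha | ha
  · subst ha
    have hg : g ^ m₀ = 1 := by
      have := hexp g
      rwa [pow_zero, one_mul] at this
    have hζ := Complex.isPrimitiveRoot_exp m₀ hm₀pos.ne'
    obtain ⟨f, -, -, hf⟩ := Cfsg.Agent.H79.char_pow_eq_eval ρ g m₀ hm₀pos hg _ hζ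
    have h1 := hf 1
    rw [pow_one, pow_one] at h1
    rw [h1, Polynomial.aeval_eq_sum_range]
    apply sum_mem
    intro i _
    rw [zsmul_eq_mul]
    exact mul_mem (intCast_mem _ _) (pow_mem hη i)
  · obtain ⟨b, rfl⟩ : ∃ b, a = b + 1 := ⟨a - 1, by omega⟩
    obtain ⟨L, hL⟩ : ∃ L : ℕ, L = p ^ (b + 1) * m₀ := ⟨_, rfl⟩
    have hLpos : 0 < L := by rw [hL]; exact Nat.mul_pos (pow_pos hp.pos _) hm₀pos
    obtain ⟨ζ, hζdef⟩ : ∃ ζ : ℂ, ζ = Complex.exp (2 * Real.pi * Complex.I / (L : ℂ)) := ⟨_, rfl⟩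
    have hζ : IsPrimitiveRoot ζ L := by
      rw [hζdef]; exact Complex.isPrimitiveRoot_exp L hLpos.ne'
    obtain ⟨f, -, -, hf⟩ := Cfsg.Agent.H79.char_pow_eq_eval ρ g L hLpos
      (by rw [hL]; exact hexp g) ζ hζ
    have hcop : Nat.Coprime (p ^ (b + 1)) m₀ :=
      Nat.Coprime.pow_left _ ((Nat.Prime.coprime_iff_not_dvd hp).mpr hm₀)
    obtain ⟨e₁, he₁p, he₁m⟩ : ∃ e₁ : ℕ, e₁ ≡ 1 [MOD p ^ (b + 1)] ∧ e₁ ≡ 0 [MOD m₀] :=
      ⟨Nat.chineseRemainder hcop 1 0, (Nat.chineseRemainder hcop 1 0).2.1,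
        (Nat.chineseRemainder hcop 1 0).2.2⟩
    obtain ⟨e₂, he₂p, he₂m⟩ : ∃ e₂ : ℕ, e₂ ≡ 0 [MOD p ^ (b + 1)] ∧ e₂ ≡ 1 [MOD m₀] :=
      ⟨Nat.chineseRemainder hcop 0 1, (Nat.chineseRemainder hcop 0 1).2.1,
        (Nat.chineseRemainder hcop 0 1).2.2⟩
    have hβ : ζ ^ e₂ ∈ IntermediateField.adjoin ℚ
        ({Complex.exp (2 * Real.pi * Complex.I / m₀)} : Set ℂ) := by
      obtain ⟨t, ht⟩ := (Nat.modEq_zero_iff_dvd).mp he₂p
      have h1 : ζ ^ (p ^ (b + 1)) = Complex.exp (2 * Real.pi * Complex.I / m₀) := by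
        rw [hζdef, ← Complex.exp_nat_mul]
        congr 1
        rw [hL]
        have hp0 : ((p : ℂ)) ≠ 0 := by exact_mod_cast hp.pos.ne'
        have hm0 : ((m₀ : ℂ)) ≠ 0 := by exact_mod_cast hm₀pos.ne'
        push_cast
        field_simp
      rw [ht, pow_mul, h1]
      exact pow_mem hη t
    have hγ : ∀ i : ℕ, (ζ ^ (e₁ * i)) ^ (p ^ (b + 1)) = 1 := by
      intro i
      obtain ⟨t, ht⟩ := (Nat.modEq_zero_iff_dvd).mp he₁m
      rw [← pow_mul, ht]
      have h1 : m₀ * t * i * p ^ (b + 1) = L * (t * i) := by rw [hL]; ring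
      rw [h1, pow_mul, hζ.pow_eq_one, one_pow]
    have hu : ∀ v : ℕ, ¬ p ∣ v → ρ.character (g ^ (v * e₁ + e₂)) = ρ.character g := by
      intro v hv
      apply hfix
      · intro hd
        apply hv
        have h1 : v * e₁ + e₂ ≡ v * 1 + 0 [MOD p ^ (b + 1)] := (he₁p.mul_left v).add he₂p
        have h2 : v * e₁ + e₂ ≡ v [MOD p] := by
          have := h1.of_dvd (dvd_pow_self p (Nat.succ_ne_zero b))
          simpa using this
        exact (h2.dvd_iff (dvd_refl p)).mp hd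
      · have h1 : v * e₁ + e₂ ≡ v * 0 + 1 [MOD m₀] := (he₁m.mul_left v).add he₂m
        simpa using h1
    have hval : ∀ v : ℕ, ρ.character (g ^ (v * e₁ + e₂))
        = ∑ i ∈ Finset.range (f.natDegree + 1),
            (f.coeff i : ℂ) * (ζ ^ e₂) ^ i * (ζ ^ (e₁ * i)) ^ v := by
      intro v
      rw [hf, Polynomial.aeval_eq_sum_range]
      apply Finset.sum_congr rfl
      intro i _
      have h1 : (ζ ^ (v * e₁ + e₂)) ^ i = (ζ ^ e₂) ^ i * (ζ ^ (e₁ * i)) ^ v := by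
        rw [← pow_mul, ← pow_mul, ← pow_mul, ← pow_add]
        congr 1
        ring
      rw [zsmul_eq_mul, h1, mul_assoc]
    have hnd : ∀ r ∈ Finset.Ico 1 p, ∀ w : ℕ, ¬ p ∣ r + p * w := by
      intro r hr w hd
      have h1 : p ∣ r := (Nat.dvd_add_left (dvd_mul_right p w)).mp hd
      have h2 := Finset.mem_Ico.mp hr
      exact absurd (Nat.le_of_dvd h2.1 h1) (not_le.mpr h2.2)
    have hsum : ((p - 1 : ℕ) : ℂ) * ((p ^ b : ℕ) : ℂ) * ρ.character g
        = ∑ i ∈ Finset.range (f.natDegree + 1), (f.coeff i : ℂ) * (ζ ^ e₂) ^ i *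
            ∑ r ∈ Finset.Ico 1 p, ∑ w ∈ Finset.range (p ^ b),
              (ζ ^ (e₁ * i)) ^ (r + p * w) := by
      have h1 : ∑ r ∈ Finset.Ico 1 p, ∑ w ∈ Finset.range (p ^ b),
            ρ.character (g ^ ((r + p * w) * e₁ + e₂))
          = ((p - 1 : ℕ) : ℂ) * ((p ^ b : ℕ) : ℂ) * ρ.character g := by
        rw [Finset.sum_congr rfl (fun r hr => Finset.sum_congr rfl
          (fun w _ => hu (r + p * w) (hnd r hr w)))]
        rw [Finset.sum_const, Finset.sum_const, Nat.card_Ico, Finset.card_range, nsmul_eq_mul,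
          nsmul_eq_mul, mul_assoc]
      rw [← h1]
      calc ∑ r ∈ Finset.Ico 1 p, ∑ w ∈ Finset.range (p ^ b),
            ρ.character (g ^ ((r + p * w) * e₁ + e₂))
          = ∑ r ∈ Finset.Ico 1 p, ∑ w ∈ Finset.range (p ^ b),
              ∑ i ∈ Finset.range (f.natDegree + 1),
                (f.coeff i : ℂ) * (ζ ^ e₂) ^ i * (ζ ^ (e₁ * i)) ^ (r + p * w) :=
            Finset.sum_congr rfl (fun r _ => Finset.sum_congr rfl (fun w _ => hval _))
        _ = ∑ r ∈ Finset.Ico 1 p, ∑ i ∈ Finset.range (f.natDegree + 1),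
              ∑ w ∈ Finset.range (p ^ b),
                (f.coeff i : ℂ) * (ζ ^ e₂) ^ i * (ζ ^ (e₁ * i)) ^ (r + p * w) :=
            Finset.sum_congr rfl (fun r _ => Finset.sum_comm)
        _ = ∑ i ∈ Finset.range (f.natDegree + 1), ∑ r ∈ Finset.Ico 1 p,
              ∑ w ∈ Finset.range (p ^ b),
                (f.coeff i : ℂ) * (ζ ^ e₂) ^ i * (ζ ^ (e₁ * i)) ^ (r + p * w) :=
            Finset.sum_comm
        _ = _ := by
            apply Finset.sum_congr rfl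
            intro i _
            rw [Finset.mul_sum]
            apply Finset.sum_congr rfl
            intro r _
            rw [Finset.mul_sum]
    have hne : ((p - 1 : ℕ) : ℂ) * ((p ^ b : ℕ) : ℂ) ≠ 0 := by
      have h1 : 0 < p - 1 := Nat.sub_pos_of_lt hp.one_lt
      have h2 : 0 < p ^ b := pow_pos hp.pos b
      exact mul_ne_zero (by exact_mod_cast h1.ne') (by exact_mod_cast h2.ne')
    have hmem : ((p - 1 : ℕ) : ℂ) * ((p ^ b : ℕ) : ℂ) * ρ.character g ∈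
        IntermediateField.adjoin ℚ ({Complex.exp (2 * Real.pi * Complex.I / m₀)} : Set ℂ) := by
      rw [hsum]
      apply sum_mem
      intro i _
      obtain ⟨k, hk⟩ := unit_sum p b hp.pos _ (hγ i)
      rw [hk]
      exact mul_mem (mul_mem (intCast_mem _ _) (pow_mem hβ i)) (intCast_mem _ _)
    have hfin : ρ.character g = (((p - 1 : ℕ) : ℂ) * ((p ^ b : ℕ) : ℂ))⁻¹ *
        (((p - 1 : ℕ) : ℂ) * ((p ^ b : ℕ) : ℂ) * ρ.character g) := by
      rw [← mul_assoc, inv_mul_cancel₀ hne, one_mul]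
    rw [hfin]
    exact mul_mem (inv_mem (mul_mem (natCast_mem _ _) (natCast_mem _ _))) hmem

end Cfsg.Agent.H92.PRat
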