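/-
helper92: extension lemmas in "hom form" (an injective homomorphism `ι : K →* J` with normal
range instead of a normal subgroup), used for the `p`-rational extension theorem S4892.

* `twist_sub` / `twist`: two irreducible extensions of the same irreducible character differ
  by a linear character trivial on the normal subgroup (Gallagher);
* `cyclic_ext`: invariant characters extend across cyclic quotients (S0886);
* `sylow_ext`: Sylow-wise extendibility implies extendibility (S0888).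
-/
import Mathlib
import Cfsg.Prelude.Def_Blocks
import Cfsg.Agent.Lib.Gallagher
import Cfsg.Agent.Lib.Clifford
import Cfsg.Agent.H19.LinChar
import Cfsg.Agent.H80.Block
import Cfsg.Agent.S0886
import Cfsg.Agent.S0888

set_option autoImplicit false
set_option linter.unusedSectionVars false
set_option linter.unusedVariables false
set_option linter.style.haveILetI false

namespace Cfsg.Agent.H92.PRat

open Cfsg Cfsg.Agent.H4 Cfsg.Agent.Clifford
open scoped ComplexConjugate

universe u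

section Sub

variable {G : Type u} [Group G] [Fintype G] (N : Subgroup G) [hN : N.Normal]

/-- Two irreducible characters of `G` extending the same irreducible character of `N ⊴ G`
differ by a linear character that is trivial on `N`. -/
theorem twist_sub {θ : N → ℂ} (hθ : IsIrrCharacter N θ) {χ χ' : G → ℂ}
    (hχ : IsIrrCharacter G χ) (hχ' : IsIrrCharacter G χ')
    (h : ∀ n : N, χ n = θ n) (h' : ∀ n : N, χ' n = θ n) :
    ∃ μ : G →* ℂˣ, (∀ n : N, μ (n : G) = 1) ∧ ∀ g, χ' g = χ g * ((μ g : ℂˣ) : ℂ) := by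
  classical
  have hres : (fun n : N => χ n) = θ := funext h
  have hone : IsIrrCharacter N (fun _ : N => (1 : ℂ)) := Cfsg.Agent.H80.isIrrCharacter_one N
  have hχcf := isClassFunction_of_isCharacter (isCharacter_of_isIrrCharacter hχ)
  have hχ'cf := isClassFunction_of_isCharacter (isCharacter_of_isIrrCharacter hχ')
  have hθinv : ∀ g : G, conjChar N θ g = θ := by
    intro g
    rw [← hres]
    exact conjChar_res N hχcf g
  have h1inv : ∀ g : G, conjChar N (fun _ : N => (1 : ℂ)) g = fun _ => 1 := fun g => rfl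
  have hmul1 : (fun _ : N => (1 : ℂ)) * θ = θ := by
    funext n; simp
  have hprod : IsIrrCharacter N ((fun _ : N => (1 : ℂ)) * θ) := by
    rw [hmul1]; exact hθ
  obtain ⟨-, -, h3⟩ := gallagher N hone hθ h1inv hθinv hprod
    (isCharacter_of_isIrrCharacter hχ) h
  have hψ : classInner (indFun N ((fun _ : N => (1 : ℂ)) * θ)) χ' ≠ 0 := by
    rw [frobenius_reciprocity N _ _ hχ'cf]
    have e : (fun n : N => χ' n) = θ := funext h'
    rw [e, hmul1, classInner_irr_irr hθ hθ, if_pos rfl]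
    exact one_ne_zero
  obtain ⟨β, hβ, hβ1, hβχ⟩ := h3 χ' hχ' hψ
  have hβχ' : ∀ g : G, β g * χ g = χ' g := fun g => congrFun hβχ g
  have hχ1 : χ 1 ≠ 0 := irr_one_ne_zero' hχ
  have hdeg : χ' 1 = χ 1 := by
    have a := h' 1
    have b := h 1
    simp only [OneMemClass.coe_one] at a b
    rw [a, b]
  have hβone : β 1 = 1 := by
    have h := hβχ' 1
    rw [hdeg] at h
    exact mul_right_cancel₀ hχ1 (by rw [h, one_mul])
  have hβch : IsCharacter G β := isCharacter_of_isIrrCharacter hβ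
  have hmul : ∀ a b : G, β (a * b) = β a * β b := Cfsg.Agent.H19.linChar_mul β hβch hβone
  have hβN : ∀ n : N, β n = 1 := by
    by_contra hcon
    push Not at hcon
    obtain ⟨n₀, hn₀⟩ := hcon
    apply hβ1
    rw [frobenius_reciprocity N _ _ (isClassFunction_of_isCharacter hβch)]
    unfold classInner
    have hsum : ∑ n : N, β n = 0 := by
      have e : ∑ n : N, β n = β n₀ * ∑ n : N, β n := by
        rw [Finset.mul_sum, ← Equiv.sum_comp (Equiv.mulLeft n₀) (fun n : N => β n)]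
        refine Finset.sum_congr rfl fun n _ => ?_
        simp [hmul]
      have h0 : (1 - β n₀) * ∑ n : N, β n = 0 := by
        rw [sub_mul, one_mul, ← e, sub_self]
      exact (mul_eq_zero.mp h0).resolve_left (sub_ne_zero.mpr (Ne.symm hn₀))
    have e2 : ∑ n : N, (1 : ℂ) * conj (β n) = conj (∑ n : N, β n) := by
      rw [map_sum]; simp
    rw [e2, hsum, map_zero, mul_zero]
  have hne : ∀ g, β g ≠ 0 := Cfsg.Agent.H19.linChar_ne_zero β hβch hβone
  refine ⟨MonoidHom.mk' (fun g => Units.mk0 (β g) (hne g)) (fun a b => by ext; simp [hmul]),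
    ?_, ?_⟩
  · intro n; ext; simpa using hβN n
  · intro g
    rw [← hβχ' g]
    simp [mul_comm]

end Sub

section Hom

variable {J : Type u} [Group J] [Fintype J] {K : Type u} [Group K] [Fintype K]
  (ι : K →* J) (hι : Function.Injective ι)

/-- The character of the range of `ι` corresponding to a function on `K`. -/
noncomputable def rangeChar (θ : K → ℂ) : ι.range → ℂ :=
  fun n' => θ ((MonoidHom.ofInjective hι).symm n')

theorem rangeChar_apply (θ : K → ℂ) (n : K) (h : ι n ∈ ι.range) :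
    rangeChar ι hι θ ⟨ι n, h⟩ = θ n := by
  unfold rangeChar
  congr 1
  rw [MulEquiv.symm_apply_eq]
  exact Subtype.ext (MonoidHom.ofInjective_apply hι).symm

theorem isIrr_rangeChar {θ : K → ℂ} (hθ : IsIrrCharacter K θ) :
    IsIrrCharacter ι.range (rangeChar ι hι θ) :=
  isIrrCharacter_comp_equiv (MonoidHom.ofInjective hι).symm hθ

theorem mr (n : K) : ι n ∈ ι.range := MonoidHom.mem_range.mpr ⟨n, rfl⟩

theorem exists_eq_range (n' : ι.range) : ∃ (n : K) (h : ι n ∈ ι.range), n' = ⟨ι n, h⟩ := by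
  obtain ⟨n, hn⟩ := MonoidHom.mem_range.mp n'.2
  exact ⟨n, mr ι n, Subtype.ext hn.symm⟩

include hι

/-- Gallagher for extensions, hom form. -/
theorem twist [hn : ι.range.Normal] {θ : K → ℂ} (hθ : IsIrrCharacter K θ) {χ χ' : J → ℂ}
    (hχ : IsIrrCharacter J χ) (hχ' : IsIrrCharacter J χ')
    (h : ∀ n, χ (ι n) = θ n) (h' : ∀ n, χ' (ι n) = θ n) :
    ∃ μ : J →* ℂˣ, (∀ n, μ (ι n) = 1) ∧ ∀ g, χ' g = χ g * ((μ g : ℂˣ) : ℂ) := by
  have key := twist_sub ι.range (isIrr_rangeChar ι hι hθ) hχ hχ' (fun n' => ?_) (fun n' => ?_)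
  · obtain ⟨μ, hμ, hμ'⟩ := key
    exact ⟨μ, fun n => hμ ⟨ι n, mr ι n⟩, hμ'⟩
  · obtain ⟨n, hn, rfl⟩ := exists_eq_range ι n'
    rw [rangeChar_apply]; exact h n
  · obtain ⟨n, hn, rfl⟩ := exists_eq_range ι n'
    rw [rangeChar_apply]; exact h' n

theorem rangeChar_inv [hn : ι.range.Normal] {θ : K → ℂ}
    (hinv : ∀ (g : J) (n n' : K), ι n' = g * ι n * g⁻¹ → θ n' = θ n) (g : J) (n' : ι.range) :
    rangeChar ι hι θ ⟨g * n' * g⁻¹, hn.conj_mem (n' : J) n'.2 g⟩ = rangeChar ι hι θ n' := by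
  obtain ⟨n, hn', rfl⟩ := exists_eq_range ι n'
  obtain ⟨n₂, hn₂⟩ : ∃ n₂, ι n₂ = g * ι n * g⁻¹ :=
    MonoidHom.mem_range.mp (hn.conj_mem (ι n) (mr ι n) g)
  have e : (⟨g * ι n * g⁻¹, hn.conj_mem (ι n) hn' g⟩ : ι.range) = ⟨ι n₂, mr ι n₂⟩ :=
    Subtype.ext hn₂.symm
  rw [e, rangeChar_apply, rangeChar_apply]
  exact hinv g n n₂ hn₂

/-- Invariant characters extend across cyclic quotients, hom form. -/
theorem cyclic_ext [hn : ι.range.Normal] (hcyc : IsCyclic (J ⧸ ι.range)) {θ : K → ℂ}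
    (hθ : IsIrrCharacter K θ)
    (hinv : ∀ (g : J) (n n' : K), ι n' = g * ι n * g⁻¹ → θ n' = θ n) :
    ∃ χ : J → ℂ, IsIrrCharacter J χ ∧ ∀ n, χ (ι n) = θ n := by
  obtain ⟨χ, hχ, hχ'⟩ := Cfsg.Agent.S0886.result ι.range hcyc (rangeChar ι hι θ)
    (isIrr_rangeChar ι hι hθ) (fun g n' => rangeChar_inv ι hι hinv g n')
  refine ⟨χ, hχ, fun n => ?_⟩
  have := hχ' ⟨ι n, mr ι n⟩
  rw [rangeChar_apply] at this
  exact this

/-- Sylow-wise extendibility implies extendibility, hom form. -/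
theorem sylow_ext [hn : ι.range.Normal] {θ : K → ℂ} (hθ : IsIrrCharacter K θ)
    (hinv : ∀ (g : J) (n n' : K), ι n' = g * ι n * g⁻¹ → θ n' = θ n)
    (hsyl : ∀ r : ℕ, r.Prime → ∃ (P : Subgroup J) (hP : ι.range ≤ P) (η : P → ℂ),
      Nat.Coprime P.index r ∧ (∃ k : ℕ, ι.range.relIndex P = r ^ k) ∧ IsIrrCharacter P η ∧
      ∀ n : K, η ⟨ι n, hP (mr ι n)⟩ = θ n) :
    ∃ χ : J → ℂ, IsIrrCharacter J χ ∧ ∀ n, χ (ι n) = θ n := by
  obtain ⟨χ, hχ, hχ'⟩ := Cfsg.Agent.S0888.result ι.range (rangeChar ι hι θ)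
    (isIrr_rangeChar ι hι hθ) (fun g n' => rangeChar_inv ι hι hinv g n') (fun r hr => by
      obtain ⟨P, hP, η, h1, h2, h3, h4⟩ := hsyl r hr
      refine ⟨P, hP, η, h1, h2, h3, fun n' => ?_⟩
      obtain ⟨n, hn', rfl⟩ := exists_eq_range ι n'
      rw [rangeChar_apply]
      exact h4 n)
  refine ⟨χ, hχ, fun n => ?_⟩
  have := hχ' ⟨ι n, mr ι n⟩
  rw [rangeChar_apply] at this
  exact this

end Hom

end Cfsg.Agent.H92.PRat
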